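import Mathlib

/-!
For every automorphism `η` of a vector space `Z` there is a map `P : Z → Z × F` and a start vector
whose orbit under `P` is everything, while no orbit of `η ∘ P` stays inside `Z`.
-/

set_option autoImplicit false

namespace Cfsg.Agent.Lib.SLComm

variable {F : Type*} [Field F]

/-- A functional that is non-zero on two given non-zero vectors. -/
theorem exists_dual_ne {V : Type*} [AddCommGroup V] [Module F V] {a b : V} (ha : a ≠ 0)
    (hb : b ≠ 0) : ∃ μ : Module.Dual F V, μ a ≠ 0 ∧ μ b ≠ 0 := by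
  obtain ⟨f, hf⟩ : ∃ f : Module.Dual F V, f a ≠ 0 := by
    by_contra h
    push Not at h
    exact ha ((Module.forall_dual_apply_eq_zero_iff F a).1 h)
  obtain ⟨g, hg⟩ : ∃ g : Module.Dual F V, g b ≠ 0 := by
    by_contra h
    push Not at h
    exact hb ((Module.forall_dual_apply_eq_zero_iff F b).1 h)
  by_cases h1 : f b = 0
  · by_cases h2 : g a = 0
    · exact ⟨f + g, by simpa [h2] using hf, by simpa [h1] using hg⟩
    · exact ⟨g, h2, hg⟩
  · exact ⟨f, hf, h1⟩

/-- A vector on which two given non-zero functionals are non-zero. -/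
theorem exists_vec_ne {V : Type*} [AddCommGroup V] [Module F V] {f g : Module.Dual F V}
    (hf : f ≠ 0) (hg : g ≠ 0) : ∃ v : V, f v ≠ 0 ∧ g v ≠ 0 := by
  obtain ⟨a, ha⟩ : ∃ a, f a ≠ 0 := by
    by_contra h
    push Not at h
    exact hf (LinearMap.ext h)
  obtain ⟨b, hb⟩ : ∃ b, g b ≠ 0 := by
    by_contra h
    push Not at h
    exact hg (LinearMap.ext h)
  by_cases h1 : f b = 0
  · by_cases h2 : g a = 0
    · exact ⟨a + b, by simpa [h1] using ha, by simpa [h2] using hb⟩
    · exact ⟨a, ha, h2⟩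
  · exact ⟨b, h1, hb⟩

universe u

theorem flag : ∀ (n : ℕ) (Z : Type u) [AddCommGroup Z] [Module F Z] [FiniteDimensional F Z],
    Module.finrank F Z = n → ∀ (η : Z ≃ₗ[F] Z) (κ : Module.Dual F Z),
    ∃ (P : Z →ₗ[F] Z × F) (y₀ : Z × F),
      (∀ N : Submodule F (Z × F), y₀ ∈ N → (∀ z : Z, (z, (0 : F)) ∈ N → P z ∈ N) → N = ⊤) ∧
      (∀ (z : Z) (c : F), P z + c • y₀ = 0 → z = 0 ∧ c = 0) ∧
      (∀ s : ℕ → Z, (∀ i, η (P (s i)).1 = s (i + 1) ∧ (P (s i)).2 + κ (P (s i)).1 = 0) →
        s 0 = 0) := by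
  intro n
  induction n with
  | zero =>
    intro Z _ _ _ hn η κ
    have : Subsingleton Z := Module.finrank_zero_iff.1 hn
    refine ⟨0, (0, 1), fun N hy _ => ?_, fun z c h => ?_, fun s _ => Subsingleton.elim _ _⟩
    · rw [eq_top_iff]
      intro p _
      have := N.smul_mem p.2 hy
      convert this using 1
      exact Prod.ext (Subsingleton.elim _ _) (by simp)
    · exact ⟨Subsingleton.elim _ _, by simpa using congrArg Prod.snd h⟩
  | succ n ih =>
    intro Z _ _ _ hn η κ
    have : Nontrivial Z := Module.nontrivial_of_finrank_pos (R := F) (by omega)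
    obtain ⟨e, he⟩ := exists_ne (0 : Z)
    have hηe : η e ≠ 0 := by simpa using he
    obtain ⟨μ, hμe, hμη⟩ := exists_dual_ne (F := F) he hηe
    let Z' : Submodule F Z := LinearMap.ker μ
    have hZ' : Module.finrank F Z' = n := by
      have := Module.Dual.finrank_ker_add_one_of_ne_zero (f := μ) (fun h => hμe (by simp [h]))
      show Module.finrank F (LinearMap.ker μ) = n
      omega
    let ℓ : Z' →ₗ[F] Z := Z'.subtype -
      ((μ (η e))⁻¹ • (μ.comp (η.toLinearMap.comp Z'.subtype))).smulRight e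
    have hℓ : ∀ z : Z', ℓ z = (z : Z) - ((μ (η e))⁻¹ * μ (η z)) • e := fun z => rfl
    have hμℓ : ∀ z : Z', η (ℓ z) ∈ Z' := fun z => by
      show μ (η (ℓ z)) = 0
      rw [hℓ, map_sub, map_smul, map_sub, map_smul, smul_eq_mul]
      field_simp
      ring
    have hker : ∀ z : Z', μ (z : Z) = 0 := fun z => z.2
    let η₁ : Z' →ₗ[F] Z' := (η.toLinearMap.comp ℓ).codRestrict Z' hμℓ
    have hℓinj : ∀ z : Z', ℓ z = 0 → z = 0 := by
      intro z hz
      rw [hℓ, sub_eq_zero] at hz
      have h := congrArg μ hz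
      rw [hker, map_smul, smul_eq_mul, eq_comm, mul_eq_zero] at h
      rw [h.resolve_right hμe, zero_smul] at hz
      exact Subtype.ext hz
    have hη₁ : Function.Injective η₁ := by
      rw [← LinearMap.ker_eq_bot, LinearMap.ker_eq_bot']
      intro z hz
      exact hℓinj z ((LinearEquiv.map_eq_zero_iff η).1 (congrArg Subtype.val hz))
    obtain ⟨P', y', hN, hinj, hseq⟩ :=
      ih Z' hZ' (LinearEquiv.ofInjectiveEndo η₁ hη₁) (κ.comp ℓ)
    let cf : Module.Dual F Z := (μ e)⁻¹ • μ
    have hcfe : cf e = 1 := by simp [cf, hμe]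
    let π : Z →ₗ[F] Z' := (LinearMap.id - cf.smulRight e).codRestrict Z' (fun x => by
      show μ (x - ((μ e)⁻¹ * μ x) • e) = 0
      rw [map_sub, map_smul, smul_eq_mul]
      field_simp
      ring)
    have hπ : ∀ x : Z, (π x : Z) = x - cf x • e := fun x => rfl
    have hπe : π e = 0 := Subtype.ext (by rw [hπ, hcfe, one_smul, sub_self]; rfl)
    have hπZ : ∀ z : Z', π (z : Z) = z ∧ cf (z : Z) = 0 := fun z => by
      have h0 : cf (z : Z) = 0 := by simp [cf, hker z]
      exact ⟨Subtype.ext (by rw [hπ, h0, zero_smul, sub_zero]), h0⟩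
    let L : Z' × F →ₗ[F] Z × F := ℓ.prodMap LinearMap.id
    have hL : ∀ p : Z' × F, L p = (ℓ p.1, p.2) := fun p => rfl
    let P : Z →ₗ[F] Z × F := L.comp (P'.comp π) + cf.smulRight (L y')
    have hP : ∀ x : Z, P x = L (P' (π x) + cf x • y') := fun x => by
      show L (P' (π x)) + cf x • L y' = _
      rw [map_add, map_smul]
    refine ⟨P, (e, 0), fun N hy hcl => ?_, fun x d h => ?_, fun s hs => ?_⟩
    · have h1 : N.comap L = ⊤ := by
        refine hN _ ?_ fun z hz => ?_
        · show L y' ∈ N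
          have := hcl e hy
          rwa [hP, hπe, map_zero, zero_add, hcfe, one_smul] at this
        · show L (P' z) ∈ N
          have hz' : ((z : Z), (0 : F)) ∈ N := by
            have h : ((ℓ z, (0 : F)) : Z × F) + ((μ (η e))⁻¹ * μ (η z)) • (e, (0 : F)) ∈ N :=
              N.add_mem hz (N.smul_mem _ hy)
            convert h using 1
            simp [hℓ]
          have := hcl _ hz'
          rwa [hP, (hπZ z).1, (hπZ z).2, zero_smul, add_zero] at this
      rw [eq_top_iff]
      rintro ⟨x, d⟩ -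
      have h2 : L (π x, d) ∈ N := by
        show (π x, d) ∈ N.comap L
        rw [h1]
        trivial
      have h : L (π x, d) + (cf x + (μ (η e))⁻¹ * μ (η (π x : Z))) • (e, (0 : F)) ∈ N :=
        N.add_mem h2 (N.smul_mem _ hy)
      convert h using 1
      ext
      · simp only [hL, hℓ, hπ, Prod.fst_add, Prod.smul_fst]
        module
      · simp [hL]
    · rw [hP, hL] at h
      set q := P' (π x) + cf x • y' with hqdef
      have h2 : q.2 = 0 := by simpa using congrArg Prod.snd h
      have h1 : ℓ q.1 + d • e = 0 := by simpa using congrArg Prod.fst h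
      rw [hℓ] at h1
      have h3 := congrArg μ h1
      simp only [map_add, map_sub, map_smul, map_zero, hker, smul_eq_mul] at h3
      have hd : d = (μ (η e))⁻¹ * μ (η q.1) := by
        have : (d - (μ (η e))⁻¹ * μ (η q.1)) * μ e = 0 := by linear_combination h3
        exact sub_eq_zero.1 ((mul_eq_zero.1 this).resolve_right hμe)
      have hq1 : q.1 = 0 := Subtype.ext (by
        show (q.1 : Z) = 0
        rw [← h1, hd]
        module)
      obtain ⟨hx, hc⟩ := hinj (π x) (cf x) (Prod.ext hq1 h2)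
      refine ⟨?_, by rw [hd, hq1]; simp⟩
      have hxx := hπ x
      rw [hx, hc, zero_smul, sub_zero] at hxx
      exact hxx.symm
    · have hq : ∀ i, η (ℓ (P' (π (s i)) + cf (s i) • y').1) = s (i + 1) := fun i => by
        have := (hs i).1
        rwa [hP, hL] at this
      have hmem : ∀ i, s (i + 1) ∈ Z' := fun i => hq i ▸ hμℓ _
      have h1 := hseq (fun i => ⟨s (i + 1), hmem i⟩) fun i => by
        have hsi := hs (i + 1)
        rw [hP, hL, (hπZ ⟨s (i + 1), hmem i⟩).2, zero_smul, add_zero,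
          (hπZ ⟨s (i + 1), hmem i⟩).1] at hsi
        exact ⟨Subtype.ext hsi.1, hsi.2⟩
      have h1' : s 1 = 0 := congrArg Subtype.val h1
      set q := P' (π (s 0)) + cf (s 0) • y' with hqdef
      have hq0 : η (ℓ q.1) = s 1 := hq 0
      rw [h1', LinearEquiv.map_eq_zero_iff] at hq0
      have hq1 := hℓinj _ hq0
      have hq2 : q.2 = 0 := by
        have := (hs 0).2
        rw [hP, hL, ← hqdef] at this
        simpa [hq1] using this
      obtain ⟨hx, hc⟩ := hinj (π (s 0)) (cf (s 0)) (Prod.ext hq1 hq2)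
      have hxx := hπ (s 0)
      rw [hx, hc, zero_smul, sub_zero] at hxx
      exact hxx.symm

end Cfsg.Agent.Lib.SLComm
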