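import Cfsg.Agent.Lib.SLComm.Flag

/-!
A non-scalar element `g` of determinant one is a commutator: we construct `t` with `g t` similar
to `t`, both similar to multiplication by `(θ, α)` on `K × F`.
-/

set_option autoImplicit false

namespace Cfsg.Agent.Lib.SLComm

open Polynomial Module

variable {F : Type*} [Field F]

theorem exists_not_eigen {V : Type*} [AddCommGroup V] [Module F V] (g : V →ₗ[F] V)
    (hns : ∀ c : F, ∃ v, g v ≠ c • v) : ∃ v, ∀ c : F, g v ≠ c • v := by
  by_contra h
  push Not at h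
  obtain ⟨v₀, hv₀⟩ := hns 0
  have hv : v₀ ≠ 0 := fun h0 => hv₀ (by simp [h0])
  obtain ⟨c₀, hc₀⟩ := h v₀
  obtain ⟨w, hw⟩ := hns c₀
  obtain ⟨c, hc⟩ := h w
  obtain ⟨d, hd⟩ := h (v₀ + w)
  rw [map_add, hc₀, hc, smul_add] at hd
  refine hw ?_
  have h1 : (c - d) • w = (d - c₀) • v₀ := by
    linear_combination (norm := module) hd
  by_cases hcd : c - d = 0
  · rw [hcd, zero_smul, eq_comm, smul_eq_zero] at h1
    rw [hc, sub_eq_zero.1 hcd, sub_eq_zero.1 (h1.resolve_right hv)]
  · have hw' : w = ((c - d)⁻¹ * (d - c₀)) • v₀ := by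
      rw [mul_smul, ← h1, inv_smul_smul₀ hcd]
    rw [hw', map_smul, hc₀, smul_comm]

/-- A functional whose translates separate points. -/
def Observable {W : Type*} [AddCommGroup W] [Module F W] (T : Module.End F W)
    (ν : Module.Dual F W) : Prop :=
  ∀ v, (∀ i : ℕ, ν ((T ^ i) v) = 0) → v = 0

theorem aeval_rec {W : Type*} [AddCommGroup W] [Module F W] {f : F[X]} {n : ℕ} (hf : f.Monic)
    (hfn : f.natDegree = n) (T : Module.End F W) (ν : Module.Dual F W) (hT : aeval T f = 0) (v : W) :
    ν ((T ^ n) v) = -∑ i : Fin n, f.coeff i * ν ((T ^ (i : ℕ)) v) := by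
  rw [aeval_eq_sum_range, hfn, Finset.sum_range_succ, ← hfn, hf.coeff_natDegree, hfn,
    one_smul] at hT
  have h := congrArg (fun A : Module.End F W => ν (A v)) hT
  simp only [LinearMap.add_apply, LinearMap.sum_apply, LinearMap.smul_apply, map_add, map_sum,
    map_smul, smul_eq_mul, LinearMap.zero_apply, map_zero] at h
  rw [Finset.sum_range] at h
  linear_combination h

theorem Observable.eq_zero {W : Type*} [AddCommGroup W] [Module F W] {f : F[X]} {n : ℕ} (hf : f.Monic)
    (hfn : f.natDegree = n) {T : Module.End F W} {ν : Module.Dual F W} (o : Observable T ν)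
    (hT : aeval T f = 0) (v : W) (hv : ∀ i : Fin n, ν ((T ^ (i : ℕ)) v) = 0) : v = 0 := by
  refine o v fun i => ?_
  induction i using Nat.strong_induction_on with
  | _ i ih =>
    rcases Nat.lt_or_ge i n with hi | hi
    · exact hv ⟨i, hi⟩
    · obtain ⟨k, rfl⟩ : ∃ k, i = n + k := ⟨i - n, by omega⟩
      rw [pow_add, Module.End.mul_apply, aeval_rec hf hfn T ν hT]
      refine neg_eq_zero.2 (Finset.sum_eq_zero fun j _ => ?_)
      rw [← Module.End.mul_apply, ← pow_add, ih _ (by omega), mul_zero]

/-- Two endomorphisms killed by the same monic polynomial of full degree, both with a separating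
functional, are similar. -/
theorem exists_intertwine {W₁ W₂ : Type*} [AddCommGroup W₁] [Module F W₁] [AddCommGroup W₂]
    [Module F W₂] [FiniteDimensional F W₁] [FiniteDimensional F W₂] {f : F[X]} {n : ℕ}
    (hf : f.Monic) (hfn : f.natDegree = n) (h₁ : finrank F W₁ = n) (h₂ : finrank F W₂ = n)
    (T₁ : Module.End F W₁) (T₂ : Module.End F W₂) (ν₁ : Module.Dual F W₁) (ν₂ : Module.Dual F W₂)
    (o₁ : Observable T₁ ν₁) (o₂ : Observable T₂ ν₂) (f₁ : aeval T₁ f = 0) (f₂ : aeval T₂ f = 0) :
    ∃ Q : W₁ ≃ₗ[F] W₂, ∀ v, Q (T₁ v) = T₂ (Q v) := by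
  let O₁ : W₁ →ₗ[F] (Fin n → F) := LinearMap.pi fun i => ν₁.comp (T₁ ^ (i : ℕ))
  let O₂ : W₂ →ₗ[F] (Fin n → F) := LinearMap.pi fun i => ν₂.comp (T₂ ^ (i : ℕ))
  have i₁ : Function.Injective O₁ := by
    rw [← LinearMap.ker_eq_bot, LinearMap.ker_eq_bot']
    exact fun v hv => o₁.eq_zero hf hfn f₁ v fun i => congrFun hv i
  have i₂ : Function.Injective O₂ := by
    rw [← LinearMap.ker_eq_bot, LinearMap.ker_eq_bot']
    exact fun v hv => o₂.eq_zero hf hfn f₂ v fun i => congrFun hv i
  let e₁ := LinearEquiv.ofBijective O₁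
    ⟨i₁, (LinearMap.injective_iff_surjective_of_finrank_eq_finrank (by simp [h₁])).1 i₁⟩
  let e₂ := LinearEquiv.ofBijective O₂
    ⟨i₂, (LinearMap.injective_iff_surjective_of_finrank_eq_finrank (by simp [h₂])).1 i₂⟩
  refine ⟨e₁.trans e₂.symm, fun v => e₂.injective ?_⟩
  have hv : ∀ i : Fin n, ν₂ ((T₂ ^ (i : ℕ)) (e₁.trans e₂.symm v)) = ν₁ ((T₁ ^ (i : ℕ)) v) :=
    fun i => congrFun (e₂.apply_symm_apply (e₁ v)) i
  funext i
  rw [LinearEquiv.trans_apply, e₂.apply_symm_apply]
  show ν₁ ((T₁ ^ (i : ℕ)) (T₁ v)) = ν₂ ((T₂ ^ (i : ℕ)) (T₂ (e₁.trans e₂.symm v)))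
  rw [← Module.End.mul_apply, ← Module.End.mul_apply, ← pow_succ, ← pow_succ]
  rcases Nat.lt_or_ge ((i : ℕ) + 1) n with hi | hi
  · exact (hv ⟨(i : ℕ) + 1, hi⟩).symm
  · rw [show (i : ℕ) + 1 = n by have := i.2; omega, aeval_rec hf hfn T₁ ν₁ f₁, aeval_rec hf hfn T₂ ν₂ f₂]
    simp only [hv]

/-- A generator of an extension field of degree `m`. -/
theorem exists_theta [Fintype F] (m : ℕ) [NeZero m] (hq : m = 1 → 4 ≤ Fintype.card F) :
    ∃ (K : Type) (_ : Field K) (_ : Algebra F K) (_ : Module.Finite F K) (θ : K),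
      finrank F K = m ∧ (minpoly F θ).natDegree = m ∧ θ ≠ 0 ∧
      θ ≠ algebraMap F K (Algebra.norm F θ)⁻¹ := by
  let p := ringChar F
  have : Fact p.Prime := ⟨CharP.char_is_prime F p⟩
  let K := FiniteField.Extension F p m
  have hK : finrank F K = m := FiniteField.finrank_extension F p m
  obtain ⟨θ, hθ⟩ := IsCyclic.exists_ofOrder_eq_natCard (α := Kˣ)
  have hdeg : (minpoly F (θ : K)).natDegree = m := by
    refine ((Field.primitive_element_iff_minpoly_natDegree_eq F (θ : K)).1 ?_).trans hK
    rw [eq_top_iff]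
    rintro x -
    by_cases hx : x = 0
    · rw [hx]; exact zero_mem _
    · have hmem : Units.mk0 x hx ∈ Subgroup.zpowers θ := by
        rw [Subgroup.eq_top_of_card_eq (Subgroup.zpowers θ) (by rw [Nat.card_zpowers, hθ])]
        trivial
      obtain ⟨k, hk⟩ := Subgroup.mem_zpowers_iff.1 hmem
      have hk' := congrArg Units.val hk
      rw [Units.val_zpow_eq_zpow_val, Units.val_mk0] at hk'
      rw [← hk']
      exact zpow_mem (IntermediateField.mem_adjoin_simple_self F (θ : K)) k
  refine ⟨K, inferInstance, inferInstance, inferInstance, θ, hK, hdeg, θ.ne_zero, fun h => ?_⟩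
  have hm : m = 1 := by
    rw [← hdeg, h, minpoly.eq_X_sub_C, natDegree_X_sub_C]
  set a := (Algebra.norm F (θ : K))⁻¹ with ha
  have hN : Algebra.norm F (θ : K) = a := by
    rw [h, Algebra.norm_algebraMap, hK, hm, pow_one]
  have ha1 : a * a = 1 := by
    have h0 : Algebra.norm F (θ : K) ≠ 0 := Algebra.norm_ne_zero_iff.2 θ.ne_zero
    nth_rewrite 2 [← hN]
    exact inv_mul_cancel₀ h0
  have hθ2 : θ ^ 2 = 1 := Units.ext (by
    rw [Units.val_pow_eq_pow_val, h, sq, ← map_mul, ha1, map_one]; rfl)
  have h2 := Nat.le_of_dvd two_pos (orderOf_dvd_of_pow_eq_one hθ2)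
  rw [hθ, Nat.card_units] at h2
  have hc : Nat.card K = Nat.card F ^ m := FiniteField.natCard_extension F p m
  rw [hc, hm, pow_one, Nat.card_eq_fintype_card] at h2
  have := hq hm
  omega

theorem nonscalar [Fintype F] {V : Type*} [AddCommGroup V] [Module F V] [FiniteDimensional F V]
    (m : ℕ) [NeZero m] (hV : finrank F V = m + 1) (hq : m = 1 → 4 ≤ Fintype.card F)
    (g : V ≃ₗ[F] V) (hdet : LinearMap.det g.toLinearMap = 1)
    (hns : ∀ c : F, ∃ v, g v ≠ c • v) :
    ∃ a t : Module.End F V, LinearMap.det a = 1 ∧ LinearMap.det t = 1 ∧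
      a * t = g.toLinearMap * t * a := by
  obtain ⟨v, hv⟩ := exists_not_eigen g.toLinearMap hns
  have hv' : g v ∉ Submodule.span F {v} := fun h => by
    obtain ⟨c, hc⟩ := Submodule.mem_span_singleton.1 h
    exact hv c hc.symm
  obtain ⟨μ, hμgv, hμ⟩ := Submodule.exists_dual_map_eq_bot_of_notMem hv' inferInstance
  have hμv : μ v = 0 := by
    have : μ v ∈ (Submodule.span F {v}).map μ :=
      Submodule.mem_map_of_mem (Submodule.mem_span_singleton_self v)
    rwa [hμ, Submodule.mem_bot] at this
  let H : Submodule F V := LinearMap.ker μ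
  have hHμ : ∀ h : H, μ (h : V) = 0 := fun h => h.2
  let z : V := (μ (g v))⁻¹ • g v
  have hμz : μ z = 1 := by simp [z, hμgv]
  have hH : finrank F H = m := by
    have := Module.Dual.finrank_ker_add_one_of_ne_zero (f := μ) (fun h => hμgv (by simp [h]))
    show finrank F (LinearMap.ker μ) = m
    omega
  let π : V →ₗ[F] H := (LinearMap.id - μ.smulRight z).codRestrict H (fun w => by
    show μ (w - μ w • z) = 0
    rw [map_sub, map_smul, hμz, smul_eq_mul, mul_one, sub_self])
  have hπ : ∀ w : V, (π w : V) = w - μ w • z := fun w => rfl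
  have hπH : ∀ h : H, π (h : V) = h := fun h => Subtype.ext (by rw [hπ, hHμ]; simp)
  let ε : Dual F H := μ.comp (g.symm.toLinearMap.comp H.subtype)
  let δ : Dual F H := μ.comp (g.toLinearMap.comp H.subtype)
  have hεa : ∀ x : H, ε x = μ (g.symm x) := fun x => rfl
  have hδa : ∀ x : H, δ x = μ (g x) := fun x => rfl
  have hδ : δ ≠ 0 := fun h => hμgv (LinearMap.congr_fun h ⟨v, hμv⟩)
  have hε : ε ≠ 0 := by
    intro h
    have h1 : ∀ w, μ (g.symm w) = μ w * μ (g.symm z) := fun w => by
      have := LinearMap.congr_fun h (π w)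
      rw [hεa, hπ, map_sub, map_smul, map_sub, map_smul, smul_eq_mul, LinearMap.zero_apply] at this
      linear_combination this
    have h2 := h1 (g v)
    rw [g.symm_apply_apply, hμv] at h2
    have h3 := h1 (g (g v))
    rw [g.symm_apply_apply, (mul_eq_zero.1 h2.symm).resolve_left hμgv, mul_zero] at h3
    exact hμgv h3
  obtain ⟨u, hεu, hδu⟩ := exists_vec_ne hε hδ
  let E : Submodule F H := LinearMap.ker ε
  have hεE : ∀ x : E, ε (x : H) = 0 := fun x => x.2
  let κ : Dual F E := (δ u)⁻¹ • δ.comp E.subtype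
  have hκ : ∀ x : E, κ x = (δ u)⁻¹ * μ (g ((x : H) : V)) := fun x => rfl
  have hrest : ∀ x : E, g ((x : H) : V) - κ x • g (u : V) ∈ H := fun x => by
    show μ _ = 0
    rw [map_sub, map_smul, hκ, smul_eq_mul, ← hδa u]
    field_simp
    ring
  let η₀ : E →ₗ[F] E :=
    ((g.toLinearMap.comp (H.subtype.comp E.subtype) - κ.smulRight (g (u : V))).codRestrict H
      hrest).codRestrict E (fun x => by
        show μ (g.symm (g ((x : H) : V) - κ x • g (u : V))) = 0
        rw [map_sub, map_smul, g.symm_apply_apply, g.symm_apply_apply, map_sub, map_smul,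
          hHμ, hHμ, smul_zero, sub_zero])
  have hη₀ : ∀ x : E, ((η₀ x : H) : V) = g ((x : H) : V) - κ x • g (u : V) := fun x => rfl
  have hη₀inj : Function.Injective η₀ := by
    rw [← LinearMap.ker_eq_bot, LinearMap.ker_eq_bot']
    intro x hx
    have h := hη₀ x
    rw [hx] at h
    have hxu : (x : H) = κ x • u := Subtype.ext (g.injective (by
      rw [Submodule.coe_smul, map_smul, ← sub_eq_zero, ← h]; rfl))
    have h2 := hεE x
    rw [hxu, map_smul, smul_eq_mul, mul_eq_zero] at h2
    rw [h2.resolve_right hεu, zero_smul] at hxu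
    exact Subtype.ext hxu
  obtain ⟨P, y₀, hN, hinj, hseq⟩ :=
    flag (finrank F E) E rfl (LinearEquiv.ofInjectiveEndo η₀ hη₀inj) κ
  let J : (E × F) →ₗ[F] H := E.subtype.coprod (LinearMap.toSpanSingleton F H u)
  have hJ : ∀ p : E × F, J p = (p.1 : H) + p.2 • u := fun p => rfl
  let ce : Dual F H := (ε u)⁻¹ • ε
  have hce : ∀ h : H, ce h = (ε u)⁻¹ * ε h := fun h => rfl
  let pe : H →ₗ[F] E := (LinearMap.id - ce.smulRight u).codRestrict E (fun h => by
    show ε (h - ce h • u) = 0
    rw [map_sub, map_smul, hce, smul_eq_mul]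
    field_simp
    ring)
  have hpe : ∀ h : H, (pe h : H) = h - ce h • u := fun h => rfl
  have hce0 : ∀ x : E, ce (x : H) = 0 := fun x => by rw [hce, hεE, mul_zero]
  have hpeE : ∀ x : E, pe (x : H) = x := fun x =>
    Subtype.ext (by rw [hpe, hce0, zero_smul, sub_zero])
  let Φ₀ : H →ₗ[F] H := J.comp (P.comp pe + ce.smulRight y₀)
  have hΦ₀ : ∀ x : E, Φ₀ (x : H) = J (P x) := fun x => by
    show J (P (pe (x : H)) + ce (x : H) • y₀) = _
    rw [hpeE, hce0, zero_smul, add_zero]
  let y : ℕ → H := fun i => (Φ₀ ^ i) (J y₀)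
  have hys : ∀ i, y (i + 1) = Φ₀ (y i) := fun i => by
    show (Φ₀ ^ (i + 1)) (J y₀) = _
    rw [pow_succ', Module.End.mul_apply]
  have hclose : ∀ S : Submodule F H, J y₀ ∈ S → (∀ x : E, (x : H) ∈ S → Φ₀ (x : H) ∈ S) →
      S = ⊤ := by
    intro S h1 h2
    have h3 : S.comap J = ⊤ := hN _ h1 fun x hx => by
      have hx' : (x : H) ∈ S := by simpa [hJ] using hx
      simpa [Submodule.mem_comap, ← hΦ₀] using h2 x hx'
    rw [eq_top_iff]
    intro h _
    have h4 : J (pe h, ce h) ∈ S := by
      show (pe h, ce h) ∈ S.comap J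
      rw [h3]; trivial
    rwa [hJ, hpe, sub_add_cancel] at h4
  have hex : ∃ j, ε (y j) ≠ 0 := by
    by_contra h
    push Not at h
    have hle : Submodule.span F (Set.range y) ≤ E := by
      rw [Submodule.span_le]; rintro _ ⟨i, rfl⟩; exact h i
    have htop := hclose (Submodule.span F (Set.range y)) (Submodule.subset_span ⟨0, rfl⟩)
      (fun x hx => by
        have h1 := Submodule.mem_map_of_mem (f := Φ₀) hx
        rw [Submodule.map_span] at h1
        refine (Submodule.span_le.2 ?_) h1
        rintro _ ⟨_, ⟨i, rfl⟩, rfl⟩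
        exact Submodule.subset_span ⟨i + 1, hys i⟩)
    rw [htop] at hle
    exact hεu (hle (Submodule.mem_top (x := u)))
  classical
  let j := Nat.find hex
  have hj : ε (y j) ≠ 0 := Nat.find_spec hex
  have hlt : ∀ i, i < j → ε (y i) = 0 := fun i hi => not_not.1 (Nat.find_min hex hi)
  have hspan : Submodule.span F (Set.range fun i : Fin (j + 1) => y i) = ⊤ := by
    refine hclose _ (Submodule.subset_span ⟨0, rfl⟩) fun x hx => ?_
    obtain ⟨c, hc⟩ := (Submodule.mem_span_range_iff_exists_fun F).1 hx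
    have hε0 := hεE x
    rw [← hc, map_sum, Finset.sum_eq_single (Fin.last j)] at hε0
    · rw [map_smul, smul_eq_mul, mul_eq_zero] at hε0
      have hlast : c (Fin.last j) = 0 := hε0.resolve_right hj
      rw [← hc, map_sum]
      refine Submodule.sum_mem _ fun i _ => ?_
      rw [map_smul]
      rcases Nat.lt_or_ge (i : ℕ) j with hi | hi
      · exact Submodule.smul_mem _ _ (Submodule.subset_span ⟨⟨(i : ℕ) + 1, by omega⟩, hys i⟩)
      · rw [show i = Fin.last j from Fin.ext (by have := i.2; simp; omega), hlast, zero_smul]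
        exact Submodule.zero_mem _
    · intro i _ hi
      have : (i : ℕ) < j := by
        have := i.2
        have : (i : ℕ) ≠ j := fun h => hi (Fin.ext h)
        omega
      rw [map_smul, hlt _ this, smul_zero]
    · simp
  have hli : ∀ k, k ≤ j + 1 → LinearIndependent F fun i : Fin k => y i := by
    intro k
    induction k with
    | zero => exact fun _ => linearIndependent_empty_type
    | succ k ih =>
      intro hk
      rw [show (fun i : Fin (k + 1) => y i) = Fin.snoc (fun i : Fin k => y i) (y k) by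
        funext i
        refine Fin.lastCases ?_ ?_ i
        · simp
        · intro i; simp, linearIndependent_finSnoc]
      refine ⟨ih (by omega), fun hmem => ?_⟩
      have hmem' : y k ∈ Submodule.span F (Set.range fun i : Fin k => y i) := by simpa using hmem
      have hall : ∀ i, y i ∈ Submodule.span F (Set.range fun i : Fin k => y i) := by
        intro i
        induction i with
        | zero =>
          rcases Nat.eq_zero_or_pos k with h0 | h0
          · subst h0; exact hmem'
          · exact Submodule.subset_span ⟨⟨0, h0⟩, rfl⟩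
        | succ i ihi =>
          have h1 := Submodule.mem_map_of_mem (f := Φ₀) ihi
          rw [Submodule.map_span, ← hys] at h1
          refine (Submodule.span_le.2 ?_) h1
          rintro _ ⟨_, ⟨l, rfl⟩, rfl⟩
          show Φ₀ (y (l : ℕ)) ∈ _
          rw [← hys]
          rcases Nat.lt_or_ge ((l : ℕ) + 1) k with hl | hl
          · exact Submodule.subset_span ⟨⟨(l : ℕ) + 1, hl⟩, rfl⟩
          · rwa [show (l : ℕ) + 1 = k by have := l.2; omega]
      refine hj ((Submodule.span_le (p := E)).2 ?_ (hall j))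
      rintro _ ⟨l, rfl⟩
      exact hlt _ (by have := l.2; omega)
  let bj : Basis (Fin (j + 1)) F H := Basis.mk (hli (j + 1) le_rfl) hspan.ge
  have hjm : j + 1 = m := by rw [← hH, finrank_eq_card_basis bj, Fintype.card_fin]
  obtain ⟨K, _, _, _, θ, hK, hθd, hθ0, hθα⟩ := exists_theta (F := F) m hq
  let α : F := (Algebra.norm F θ)⁻¹
  have hαN : Algebra.norm F θ * α = 1 := mul_inv_cancel₀ (Algebra.norm_ne_zero_iff.2 hθ0)
  have hliθ : LinearIndependent F fun i : Fin (j + 1) => θ ^ (i : ℕ) := by
    have := (linearIndependent_pow (K := F) θ).comp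
      (Fin.cast (show j + 1 = (minpoly F θ).natDegree by omega)) (Fin.cast_injective _)
    exact this
  let bK : Basis (Fin (j + 1)) F K :=
    basisOfLinearIndependentOfCardEqFinrank hliθ (by rw [Fintype.card_fin, hjm, hK])
  let ψ : K ≃ₗ[F] H := bK.equiv bj (Equiv.refl _)
  have hψ : ∀ i : Fin (j + 1), ψ (θ ^ (i : ℕ)) = y i := fun i => by
    have h1 : bK i = θ ^ (i : ℕ) := by simp [bK]
    rw [← h1]
    simp [ψ, bj]
  let Φ : H →ₗ[F] H := ψ.toLinearMap.comp ((LinearMap.mulLeft F θ).comp ψ.symm.toLinearMap)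
  have hΦa : ∀ h, Φ h = ψ (θ * ψ.symm h) := fun h => rfl
  have hΦy : ∀ i : ℕ, i < j → Φ (y i) = y (i + 1) := fun i hi => by
    have h1 := hψ ⟨i, by omega⟩
    have h2 := hψ ⟨i + 1, by omega⟩
    simp only at h1 h2
    rw [hΦa, ← h1, LinearEquiv.symm_apply_apply, ← pow_succ', h2]
  have hΦE : ∀ x : E, Φ (x : H) = J (P x) := fun x => by
    obtain ⟨c, hc⟩ := (Submodule.mem_span_range_iff_exists_fun F).1
      (hspan.ge (Submodule.mem_top (x := (x : H))))
    have hε0 := hεE x
    rw [← hc, map_sum, Finset.sum_eq_single (Fin.last j)] at hε0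
    · rw [map_smul, smul_eq_mul, mul_eq_zero] at hε0
      have hlast : c (Fin.last j) = 0 := hε0.resolve_right hj
      rw [← hΦ₀, ← hc, map_sum, map_sum]
      refine Finset.sum_congr rfl fun i _ => ?_
      rw [map_smul, map_smul]
      rcases Nat.lt_or_ge (i : ℕ) j with hi | hi
      · rw [hΦy _ hi, hys]
      · rw [show i = Fin.last j from Fin.ext (by have := i.2; simp; omega), hlast, zero_smul,
          zero_smul]
    · intro i _ hi
      have : (i : ℕ) < j := by
        have := i.2
        have : (i : ℕ) ≠ j := fun h => hi (Fin.ext h)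
        omega
      rw [map_smul, hlt _ this, smul_zero]
    · simp
  have hΦinj : ∀ h, Φ h = 0 → h = 0 := fun h hh => by
    rw [hΦa, LinearEquiv.map_eq_zero_iff, mul_eq_zero] at hh
    exact ψ.symm.map_eq_zero_iff.1 (hh.resolve_left hθ0)
  let M₀ : Module.End F V := g.toLinearMap.comp (H.subtype.comp (Φ.comp π))
  have hM₀ : ∀ w, M₀ w = g ((Φ (π w) : H) : V) := fun w => rfl
  have o₀ : Observable M₀ μ := by
    intro w hw
    have hstep : ∀ i, (M₀ ^ (i + 1)) w = g ((Φ (π ((M₀ ^ i) w)) : H) : V) := fun i => by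
      rw [pow_succ', Module.End.mul_apply, hM₀]
    let s : ℕ → H := fun i => ⟨(M₀ ^ (i + 1)) w, hw (i + 1)⟩
    have hsE : ∀ i, s i ∈ E := fun i => by
      show μ (g.symm ((M₀ ^ (i + 1)) w)) = 0
      rw [hstep, g.symm_apply_apply, hHμ]
    have h0 := hseq (fun i => ⟨s i, hsE i⟩) fun i => by
      set p := P ⟨s i, hsE i⟩ with hp
      have h1 : ((s (i + 1) : H) : V) = ((η₀ p.1 : H) : V) + (p.2 + κ p.1) • g (u : V) := by
        show (M₀ ^ (i + 1 + 1)) w = _
        rw [hstep, show π ((M₀ ^ (i + 1)) w) = s i from hπH (s i),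
          show Φ (s i) = J p from hΦE ⟨s i, hsE i⟩, hJ, Submodule.coe_add, Submodule.coe_smul,
          map_add, map_smul, hη₀]
        module
      have h2 := congrArg μ h1
      rw [map_add, map_smul, hHμ, hHμ, zero_add, smul_eq_mul, ← hδa, eq_comm, mul_eq_zero] at h2
      have h3 := h2.resolve_right hδu
      refine ⟨Subtype.ext (Subtype.ext ?_), h3⟩
      rw [h3, zero_smul, add_zero] at h1
      exact h1.symm
    have h1 : (M₀ ^ 1) w = 0 := congrArg (fun x : E => ((x : H) : V)) h0
    rw [hstep, pow_zero, Module.End.one_apply, LinearEquiv.map_eq_zero_iff,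
      ZeroMemClass.coe_eq_zero] at h1
    have h2 := congrArg (fun x : H => (x : V)) (hΦinj _ h1)
    simp only [hπ] at h2
    have hw0 : μ w = 0 := by simpa using hw 0
    simpa [hw0] using h2
  -- the tuning of the last column
  let f : F[X] := (X - C α) * minpoly F θ
  have hφm : (minpoly F θ).Monic := minpoly.monic (IsIntegral.of_finite F θ)
  have hfm : f.Monic := (monic_X_sub_C α).mul hφm
  have hfn : f.natDegree = m + 1 := by
    rw [(monic_X_sub_C α).natDegree_mul hφm, natDegree_X_sub_C, hθd, add_comm]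
  have hφα : (minpoly F θ).eval α ≠ 0 := fun h0 => by
    have hd : X - C α ∣ minpoly F θ := dvd_iff_isRoot.2 h0
    have heq : X - C α = minpoly F θ := eq_of_monic_of_associated (monic_X_sub_C α) hφm
      ((irreducible_X_sub_C α).associated_of_dvd (minpoly.irreducible (IsIntegral.of_finite F θ)) hd)
    have h1 := minpoly.aeval F θ
    rw [← heq, map_sub, aeval_X, aeval_C, sub_eq_zero] at h1
    exact hθα h1
  let t₀ : Module.End F (K × F) := (LinearMap.mulLeft F θ).prodMap (LinearMap.mulLeft F α)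
  have ht₀ : ∀ (P : F[X]) (k : K) (c : F), aeval t₀ P (k, c) = (aeval θ P * k, P.eval α * c) := by
    intro P
    induction P using Polynomial.induction_on' with
    | add a b ha hb => intro k c; simp [ha, hb, add_mul]
    | monomial i r =>
      intro k c
      rw [aeval_monomial, aeval_monomial, eval_monomial, Module.End.mul_apply]
      have : ∀ i : ℕ, (t₀ ^ i) (k, c) = (θ ^ i * k, α ^ i * c) := fun i => by
        induction i with
        | zero => simp
        | succ i ih =>
          rw [pow_succ', Module.End.mul_apply, ih]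
          show (θ * (θ ^ i * k), α * (α ^ i * c)) = _
          rw [pow_succ', pow_succ', mul_assoc, mul_assoc]
      rw [this, Module.algebraMap_end_apply, Prod.smul_mk, Algebra.smul_def, smul_eq_mul,
        mul_assoc, mul_assoc]
  obtain ⟨χ, hχ⟩ : ∃ χ : Dual F K, χ ≠ 0 := by
    obtain ⟨χ, hχ, -⟩ := exists_dual_ne (F := F) (one_ne_zero (α := K)) one_ne_zero
    exact ⟨χ, fun h => hχ (by simp [h])⟩
  let χ₀ : Dual F (K × F) := χ.coprod LinearMap.id
  have o₁ : Observable t₀ χ₀ := by
    rintro ⟨k, c⟩ h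
    have hP : ∀ P : F[X], χ (aeval θ P * k) + P.eval α * c = 0 := by
      intro P
      have h1 : χ₀ (aeval t₀ P (k, c)) = 0 := by
        rw [aeval_eq_sum_range, LinearMap.sum_apply, map_sum]
        exact Finset.sum_eq_zero fun i _ => by rw [LinearMap.smul_apply, map_smul, h, smul_zero]
      rw [ht₀] at h1
      exact h1
    have hc : c = 0 := by
      have := hP (minpoly F θ)
      rw [minpoly.aeval, zero_mul, map_zero, zero_add, mul_eq_zero] at this
      exact this.resolve_left hφα
    have hk : k = 0 := by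
      by_contra hk
      refine hχ (bK.ext fun i => ?_)
      obtain ⟨d, hd⟩ : ∃ d : Fin (j + 1) → F, ∑ i, d i • θ ^ (i : ℕ) = θ ^ (i : ℕ) * k⁻¹ :=
        ⟨fun l => bK.repr (θ ^ (i : ℕ) * k⁻¹) l, by
          conv_rhs => rw [← bK.sum_repr (θ ^ (i : ℕ) * k⁻¹)]
          simp [bK]⟩
      have h1 := hP (∑ l, C (d l) * X ^ (l : ℕ))
      simp only [map_sum, map_mul, aeval_C, aeval_X_pow, ← Algebra.smul_def, hd, hc, mul_zero,
        add_zero] at h1
      rw [inv_mul_cancel_right₀ hk] at h1
      simpa [bK] using h1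
    rw [hc, hk]; rfl
  have ht₀f : aeval t₀ f = 0 := LinearMap.ext fun p => by
    obtain ⟨k, c⟩ := p
    rw [ht₀]
    simp [f]
  let O₀ : V →ₗ[F] (Fin (m + 1) → F) := LinearMap.pi fun i => μ.comp (M₀ ^ (i : ℕ))
  obtain ⟨c, hc⟩ : ∃ c : ℕ → F, ∀ w, μ ((M₀ ^ (m + 1)) w) =
      ∑ i ∈ Finset.range (m + 1), c i * μ ((M₀ ^ i) w) := by
    have hinjO : Function.Injective O₀ := by
      rw [← LinearMap.ker_eq_bot, LinearMap.ker_eq_bot']
      intro w hw
      refine o₀ w fun i => ?_
      have hchar : ∀ k, μ ((M₀ ^ k) (aeval M₀ M₀.charpoly w)) = 0 := fun k => by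
        rw [LinearMap.aeval_self_charpoly]; simp
      induction i using Nat.strong_induction_on with
      | _ i ih =>
        rcases Nat.lt_or_ge i (m + 1) with hi | hi
        · exact congrFun hw ⟨i, hi⟩
        · obtain ⟨k, rfl⟩ : ∃ k, i = m + 1 + k := ⟨i - (m + 1), by omega⟩
          have h := hchar k
          rw [aeval_eq_sum_range, LinearMap.charpoly_natDegree, hV, Finset.sum_range_succ,
            LinearMap.add_apply, LinearMap.sum_apply, map_add, map_add, map_sum, map_sum,
            Finset.sum_eq_zero, zero_add] at h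
          · have hlc : M₀.charpoly.coeff (m + 1) = 1 := by
              rw [← hV, ← LinearMap.charpoly_natDegree M₀]
              exact M₀.charpoly_monic.coeff_natDegree
            rw [hlc, one_smul, ← Module.End.mul_apply, ← pow_add, add_comm] at h
            exact h
          · intro l hl
            rw [LinearMap.smul_apply, map_smul, map_smul, ← Module.End.mul_apply, ← pow_add,
              ih _ (by have := Finset.mem_range.1 hl; omega), smul_zero]
    let e := LinearEquiv.ofBijective O₀
      ⟨hinjO, (LinearMap.injective_iff_surjective_of_finrank_eq_finrank (by simp [hV])).1 hinjO⟩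
    let L : Dual F (Fin (m + 1) → F) := (μ.comp (M₀ ^ (m + 1))).comp e.symm.toLinearMap
    refine ⟨fun i => if hi : i < m + 1 then L (Pi.single ⟨i, hi⟩ 1) else 0, fun w => ?_⟩
    rw [Finset.sum_range]
    have h1 : μ ((M₀ ^ (m + 1)) w) = L (e w) := by simp [L]
    rw [h1, L.pi_apply_eq_sum_univ (e w)]
    refine Finset.sum_congr rfl fun i _ => ?_
    simp only [i.2, dite_true, Fin.eta, smul_eq_mul, mul_comm (e w i)]
    congr 1
    · congr 1
      funext l
      simp [Pi.single_apply, eq_comm]
  let h : ℕ → Dual F V := fun k => Nat.rec μ (fun k hk => hk.comp M₀ - c (m - k) • μ) k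
  have hh0 : h 0 = μ := rfl
  have hhs : ∀ k, h (k + 1) = (h k).comp M₀ - c (m - k) • μ := fun k => rfl
  have hform : ∀ k w, h k w =
      μ ((M₀ ^ k) w) - ∑ i ∈ Finset.range k, c (m - i) * μ ((M₀ ^ (k - 1 - i)) w) := by
    intro k
    induction k with
    | zero => intro w; simp [hh0]
    | succ k ih =>
      intro w
      rw [hhs, LinearMap.sub_apply, LinearMap.comp_apply, ih, LinearMap.smul_apply,
        Finset.sum_range_succ, ← Module.End.mul_apply, ← pow_succ, smul_eq_mul]
      simp only [add_tsub_cancel_right, tsub_self, pow_zero, Module.End.one_apply]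
      have hsum : ∑ i ∈ Finset.range k, c (m - i) * μ ((M₀ ^ (k - 1 - i)) (M₀ w)) =
          ∑ i ∈ Finset.range k, c (m - i) * μ ((M₀ ^ (k - i)) w) :=
        Finset.sum_congr rfl fun i hi => by
          have hik := Finset.mem_range.1 hi
          rw [show k - i = k - 1 - i + 1 by omega, pow_succ, Module.End.mul_apply]
      rw [hsum]
      ring
  have hhn : h (m + 1) = 0 := LinearMap.ext fun w => by
    refine (hform (m + 1) w).trans ?_
    rw [hc, LinearMap.zero_apply, sub_eq_zero,
      ← Finset.sum_range_reflect (fun i => c i * μ ((M₀ ^ i) w)) (m + 1)]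
    refine Finset.sum_congr rfl fun i hi => ?_
    simp only [add_tsub_cancel_right]
  let Oh : V →ₗ[F] (Fin (m + 1) → F) := LinearMap.pi fun i => h i
  have hOh : Function.Surjective Oh := by
    refine (LinearMap.injective_iff_surjective_of_finrank_eq_finrank (by simp [hV])).1 ?_
    rw [← LinearMap.ker_eq_bot, LinearMap.ker_eq_bot']
    intro w hw
    have hsmall : ∀ k, k < m + 1 → μ ((M₀ ^ k) w) = 0 := fun k => by
      induction k using Nat.strong_induction_on with
      | _ k ih =>
        intro hk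
        have hk0 : h k w = 0 := congrFun hw ⟨k, hk⟩
        rw [hform, Finset.sum_eq_zero (fun i hi => by
          have := Finset.mem_range.1 hi
          rw [ih (k - 1 - i) (by omega) (by omega), mul_zero]), sub_zero] at hk0
        exact hk0
    refine o₀ w fun k => ?_
    induction k using Nat.strong_induction_on with
    | _ k ih =>
      rcases Nat.lt_or_ge k (m + 1) with hk | hk
      · exact hsmall k hk
      · obtain ⟨l, rfl⟩ : ∃ l, k = m + 1 + l := ⟨k - (m + 1), by omega⟩
        rw [pow_add, Module.End.mul_apply, hc]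
        refine Finset.sum_eq_zero fun i hi => ?_
        rw [← Module.End.mul_apply, ← pow_add,
          ih _ (by have := Finset.mem_range.1 hi; omega), mul_zero]
  obtain ⟨yv, hy⟩ := hOh fun i => -c (m - (i : ℕ)) - f.coeff (m - (i : ℕ))
  let M : Module.End F V := M₀ + μ.smulRight yv
  have hMa : ∀ w, M w = M₀ w + μ w • yv := fun w => rfl
  have o₂ : Observable M μ := by
    intro w hw
    refine o₀ w fun i => ?_
    have : (M ^ i) w = (M₀ ^ i) w := by
      induction i with
      | zero => rfl
      | succ i ih =>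
        rw [pow_succ', Module.End.mul_apply, hMa, hw i, zero_smul, add_zero, ih, pow_succ',
          Module.End.mul_apply]
    rw [← this, hw i]
  have hMh : ∀ k, k ≤ m + 1 → ∀ w, h k w =
      μ ((M ^ k) w) + ∑ i ∈ Finset.range k, f.coeff (m - i) * μ ((M ^ (k - 1 - i)) w) := by
    intro k
    induction k with
    | zero => intro _ w; simp [hh0]
    | succ k ih =>
      intro hk w
      have hyk : h k yv = -c (m - k) - f.coeff (m - k) := congrFun hy ⟨k, by omega⟩
      have h1 : h (k + 1) w = h k (M w) + f.coeff (m - k) * μ w := by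
        rw [hhs, LinearMap.sub_apply, LinearMap.comp_apply, LinearMap.smul_apply, hMa, map_add,
          map_smul, hyk, smul_eq_mul, smul_eq_mul]
        ring
      rw [h1, ih (by omega), Finset.sum_range_succ, ← Module.End.mul_apply, ← pow_succ]
      simp only [add_tsub_cancel_right, tsub_self, pow_zero, Module.End.one_apply]
      have hsum : ∑ i ∈ Finset.range k, f.coeff (m - i) * μ ((M ^ (k - 1 - i)) (M w)) =
          ∑ i ∈ Finset.range k, f.coeff (m - i) * μ ((M ^ (k - i)) w) :=
        Finset.sum_congr rfl fun i hi => by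
          have hik := Finset.mem_range.1 hi
          rw [show k - i = k - 1 - i + 1 by omega, pow_succ, Module.End.mul_apply]
      rw [hsum]
      ring
  have hμf : ∀ w, μ (aeval M f w) = 0 := fun w => by
    have h1 := hMh (m + 1) le_rfl w
    rw [hhn, LinearMap.zero_apply] at h1
    rw [aeval_eq_sum_range, hfn, Finset.sum_range_succ,
      show f.coeff (m + 1) = 1 by rw [← hfn]; exact hfm.coeff_natDegree, one_smul,
      LinearMap.add_apply, LinearMap.sum_apply, map_add, map_sum,
      ← Finset.sum_range_reflect (fun i => μ ((f.coeff i • M ^ i) w)) (m + 1)]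
    rw [h1, add_comm]
    congr 1
    refine Finset.sum_congr rfl fun i _ => ?_
    simp only [add_tsub_cancel_right, LinearMap.smul_apply, map_smul, smul_eq_mul]
  have hMf : aeval M f = 0 := LinearMap.ext fun w => o₂ _ fun i => by
    have hcm : M ^ i * aeval M f = aeval M f * M ^ i := by
      rw [← aeval_X_pow (R := F) (A := Module.End F V) M, ← map_mul, ← map_mul, mul_comm]
    rw [← Module.End.mul_apply, hcm, Module.End.mul_apply, hμf]
  have hKF : finrank F (K × F) = m + 1 := by rw [finrank_prod, hK, finrank_self]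
  obtain ⟨Q, hQ⟩ := exists_intertwine hfm hfn hV hKF M t₀ μ χ₀ o₂ o₁ hMf ht₀f
  have hdetΦ : LinearMap.det Φ = Algebra.norm F θ := by
    show LinearMap.det (ψ.toLinearMap.comp ((LinearMap.mulLeft F θ).comp ψ.symm.toLinearMap)) = _
    rw [LinearMap.det_conj, Algebra.norm_apply]
    rfl
  have hdetM : LinearMap.det M = 1 := by
    have hM : M = Q.symm.toLinearMap.comp (t₀.comp Q.toLinearMap) := LinearMap.ext fun w => by
      show M w = Q.symm (t₀ (Q w))
      rw [← hQ, Q.symm_apply_apply]
    rw [hM]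
    refine (LinearMap.det_conj t₀ Q.symm).trans ?_
    rw [LinearMap.det_prodMap, show LinearMap.det (LinearMap.mulLeft F θ) = Algebra.norm F θ by
      rw [Algebra.norm_apply]; rfl]
    simp [hαN]
  let x : V := g.symm yv
  let t : Module.End F V := H.subtype.comp (Φ.comp π) + μ.smulRight x
  have hta : ∀ w, t w = ((Φ (π w) : H) : V) + μ w • x := fun w => rfl
  have hgt : g.toLinearMap * t = M := LinearMap.ext fun w => by
    show g (t w) = M w
    rw [hta, map_add, map_smul, g.apply_symm_apply, hMa, hM₀]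
  have hdett : LinearMap.det t = 1 := by
    rw [← hgt, map_mul, hdet, one_mul] at hdetM
    exact hdetM
  -- the eigenvalue off the hyperplane
  let R₁ : (H × F) ≃ₗ[F] V := LinearEquiv.ofLinear
    (H.subtype.coprod (LinearMap.toSpanSingleton F V z)) (π.prod μ)
    (LinearMap.ext fun w => by
      show (π w : V) + μ w • z = w
      rw [hπ, sub_add_cancel])
    (LinearMap.ext fun p => by
      show (π ((p.1 : V) + p.2 • z), μ ((p.1 : V) + p.2 • z)) = p
      have h1 : μ ((p.1 : V) + p.2 • z) = p.2 := by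
        rw [map_add, map_smul, hHμ, hμz, zero_add, smul_eq_mul, mul_one]
      refine Prod.ext (Subtype.ext ?_) h1
      show _ = (p.1 : V)
      rw [hπ, h1, add_sub_cancel_right])
  let Td : Module.End F V :=
    R₁.toLinearMap.comp ((Φ.prodMap LinearMap.id).comp R₁.symm.toLinearMap)
  have hTd : ∀ w, Td w = ((Φ (π w) : H) : V) + μ w • z := fun w => rfl
  have hxH : ∀ r : H, ∃ s : H, Φ s = r := fun r => ⟨ψ (θ⁻¹ * ψ.symm r), by
    rw [hΦa, LinearEquiv.symm_apply_apply, mul_inv_cancel_left₀ hθ0, LinearEquiv.apply_symm_apply]⟩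
  obtain ⟨s₀, hs₀⟩ := hxH (π x)
  have htdec : t = Td.comp (LinearMap.transvection μ (((s₀ : H) : V) + (μ x - 1) • z)) := by
    refine LinearMap.ext fun w => ?_
    show t w = Td (LinearMap.transvection μ (((s₀ : H) : V) + (μ x - 1) • z) w)
    have hπz : π z = 0 := Subtype.ext (by rw [hπ, hμz, one_smul, sub_self]; rfl)
    have hw : π (w + μ w • (((s₀ : H) : V) + (μ x - 1) • z)) = π w + μ w • s₀ := by
      rw [map_add, map_smul, map_add, map_smul, hπz, smul_zero, add_zero, hπH]
    have hw' : μ (w + μ w • (((s₀ : H) : V) + (μ x - 1) • z)) = μ w + μ w * (μ x - 1) := by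
      rw [map_add, map_smul, map_add, map_smul, hHμ, hμz]; simp
    rw [LinearMap.transvection.apply, hTd, hta, hw, hw', map_add, map_smul, hs₀]
    push_cast
    rw [hπ x]
    module
  have hμx : μ x = α := by
    have h1 : LinearMap.det t = Algebra.norm F θ * μ x := by
      rw [htdec, LinearMap.det_comp, LinearMap.transvection.det]
      congr 1
      · show LinearMap.det (R₁.toLinearMap.comp _) = _
        rw [LinearMap.det_conj, LinearMap.det_prodMap, hdetΦ]
        simp
      · rw [map_add, map_smul, hHμ, hμz]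
        simp
    rw [hdett] at h1
    calc μ x = (Algebra.norm F θ * μ x) * α := by rw [mul_right_comm, hαN, one_mul]
      _ = α := by rw [← h1, one_mul]
  have hθsub : θ - algebraMap F K α ≠ 0 := sub_ne_zero.2 hθα
  let h₀ : H := -ψ ((θ - algebraMap F K α)⁻¹ * ψ.symm (π x))
  have hh₀ : Φ h₀ + π x = α • h₀ := by
    apply ψ.symm.injective
    rw [map_add, map_smul, hΦa, LinearEquiv.symm_apply_apply, show ψ.symm h₀ =
      -((θ - algebraMap F K α)⁻¹ * ψ.symm (π x)) by simp [h₀], Algebra.smul_def]
    field_simp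
    ring
  let z₁ : V := z + (h₀ : V)
  have hμz₁ : μ z₁ = 1 := by rw [map_add, hμz, hHμ, add_zero]
  have hπz : π z₁ = h₀ := Subtype.ext (by rw [hπ, hμz₁, one_smul]; simp [z₁])
  have htz : t z₁ = α • z₁ := by
    rw [hta, hπz, hμz₁, one_smul, smul_add, ← Submodule.coe_smul, ← hh₀, Submodule.coe_add, hπ,
      hμx]
    abel
  let R₀ : (K × F) →ₗ[F] V :=
    (H.subtype.comp ψ.toLinearMap).coprod (LinearMap.toSpanSingleton F V z₁)
  have hR₀ : ∀ p : K × F, R₀ p = (ψ p.1 : V) + p.2 • z₁ := fun p => rfl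
  have hR₀i : Function.Injective R₀ := by
    rw [← LinearMap.ker_eq_bot, LinearMap.ker_eq_bot']
    intro p hp
    rw [hR₀] at hp
    have h1 := congrArg μ hp
    rw [map_add, map_smul, hHμ, hμz₁, map_zero, zero_add, smul_eq_mul, mul_one] at h1
    rw [h1, zero_smul, add_zero, ZeroMemClass.coe_eq_zero, LinearEquiv.map_eq_zero_iff] at hp
    exact Prod.ext hp h1
  let R := LinearEquiv.ofBijective R₀
    ⟨hR₀i, (LinearMap.injective_iff_surjective_of_finrank_eq_finrank (by rw [hKF, hV])).1 hR₀i⟩
  have hR : ∀ p, t (R p) = R (t₀ p) := by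
    rintro ⟨k, d⟩
    show t (R₀ (k, d)) = R₀ (θ * k, α * d)
    rw [hR₀, hR₀, map_add, map_smul, htz, hta, hπH, hHμ, zero_smul, add_zero, hΦa,
      LinearEquiv.symm_apply_apply, mul_comm α d, mul_smul]
  let a₁ : Module.End F V := Q.symm.toLinearMap.comp R.symm.toLinearMap
  have ha₁ : ∀ w, a₁ (t w) = M (a₁ w) := by
    intro w
    show Q.symm (R.symm (t w)) = M (Q.symm (R.symm w))
    apply Q.injective
    rw [hQ, Q.apply_symm_apply, Q.apply_symm_apply]
    apply R.injective
    rw [R.apply_symm_apply, ← hR, R.apply_symm_apply]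
  have ha₁0 : LinearMap.det a₁ ≠ 0 :=
    ((R.symm.trans Q.symm).isUnit_det').ne_zero
  let d : F := (LinearMap.det a₁)⁻¹
  let D : Module.End F V :=
    R.toLinearMap.comp ((LinearMap.id.prodMap (LinearMap.mulLeft F d)).comp R.symm.toLinearMap)
  refine ⟨a₁.comp D, t, ?_, hdett, ?_⟩
  · rw [LinearMap.det_comp]
    show _ * LinearMap.det (R.toLinearMap.comp _) = 1
    rw [LinearMap.det_conj, LinearMap.det_prodMap]
    simp [d, ha₁0]
  · rw [hgt]
    refine LinearMap.ext fun w => ?_
    show a₁ (D (t w)) = M (a₁ (D w))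
    rw [← ha₁]
    congr 1
    show R _ = t (R _)
    rw [hR]
    congr 1
    show (LinearMap.id.prodMap (LinearMap.mulLeft F d)) (R.symm (t w)) =
      t₀ ((LinearMap.id.prodMap (LinearMap.mulLeft F d)) (R.symm w))
    have : R.symm (t w) = t₀ (R.symm w) := R.injective (by rw [R.apply_symm_apply, ← hR, R.apply_symm_apply])
    rw [this]
    show (θ * (R.symm w).1, d * (α * (R.symm w).2)) = (θ * (R.symm w).1, α * (d * (R.symm w).2))
    rw [mul_left_comm]

end Cfsg.Agent.Lib.SLComm
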