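import Mathlib

/-!
A scalar matrix of determinant one is a commutator in the special linear group.
-/

set_option autoImplicit false

namespace Cfsg.Agent.Lib.SLComm

open Matrix Polynomial

variable {F : Type*} [Field F]

/-- A monomial matrix on the cycle. -/
def shiftMat (n : ℕ) [NeZero n] (d : Fin n → F) : Matrix (Fin n) (Fin n) F :=
  fun i j => if j = i + 1 then d i else 0

theorem shiftMat_det (n : ℕ) [NeZero n] (d : Fin n → F) :
    (shiftMat n d).det = (∏ i, d i) * (-1) ^ (n - 1) := by
  have h : shiftMat n d = diagonal d * Equiv.Perm.permMatrix F (finRotate n) := by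
    ext i j
    rw [diagonal_mul]
    simp [shiftMat, PEquiv.toMatrix_apply, eq_comm]
  rw [h, det_mul, det_diagonal, Matrix.det_permutation, sign_finRotate]
  simp

theorem shiftMat_pow (n : ℕ) [NeZero n] (d : Fin n → F) : ∀ (s : ℕ) (i j : Fin n),
    (shiftMat n d ^ s) i j =
      if j = i + (Fin.ofNat n s) then ∏ r ∈ Finset.range s, d (i + Fin.ofNat n r) else 0 := by
  intro s
  induction s with
  | zero =>
    intro i j
    simp [Matrix.one_apply, eq_comm]
  | succ s ih =>
    intro i j
    have h1 : (Fin.ofNat n (s + 1)) = Fin.ofNat n s + 1 := by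
      ext; simp [Fin.val_add]
    rw [pow_succ, Matrix.mul_apply, Finset.sum_eq_single (i + Fin.ofNat n s)]
    · rw [ih, if_pos rfl, shiftMat, h1, ← add_assoc]
      split_ifs
      · rw [Finset.prod_range_succ]
      · rw [mul_zero]
    · intro l _ hl
      rw [ih, if_neg hl, zero_mul]
    · simp

theorem shift_diag (n : ℕ) [NeZero n] (d : Fin n → F) {c : F} (hc : c ^ n = 1) :
    shiftMat n d * diagonal (fun i : Fin n => c ^ (i : ℕ)) =
      c • (diagonal (fun i : Fin n => c ^ (i : ℕ)) * shiftMat n d) := by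
  ext i j
  rw [mul_diagonal, Matrix.smul_apply, diagonal_mul, smul_eq_mul, shiftMat]
  split_ifs with h
  · subst h
    rw [Fin.val_add, Fin.val_one', Nat.add_mod_mod, ← pow_eq_pow_mod _ hc, pow_succ]
    ring
  · simp

theorem diag_det (n : ℕ) (c : F) :
    (diagonal fun i : Fin n => c ^ (i : ℕ)).det = c ^ (∑ i ∈ Finset.range n, i) := by
  rw [det_diagonal, Finset.prod_pow_eq_pow_sum, Fin.sum_univ_eq_sum_range (fun i => i)]

theorem exists_sq_add_sq_ne [Fintype F] (h2 : (-1 : F) ≠ 1) {c : F} (hc : c ≠ 0) :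
    ∃ u v : F, u ≠ 0 ∧ u * u + v * v = c := by
  have hodd : Fintype.card F % 2 = 1 := FiniteField.odd_card_of_char_ne_two (fun h => h2 (by
    have : CharP F 2 := ringChar.of_eq h
    exact CharTwo.neg_eq 1))
  obtain ⟨a, b, hab⟩ := FiniteField.exists_root_sum_quadratic (f := (X ^ 2 : F[X]))
    (g := X ^ 2 - C c) (degree_X_pow 2) (degree_X_pow_sub_C (by decide) _) hodd
  simp only [eval_pow, eval_X, eval_sub, eval_C] at hab
  by_cases ha : a = 0
  · refine ⟨b, a, fun hb => hc ?_, by linear_combination hab⟩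
    rw [ha, hb] at hab
    linear_combination -hab
  · exact ⟨a, b, ha, by linear_combination hab⟩

theorem scalar [Fintype F] (n : ℕ) [NeZero n] {c : F} (hc : c ^ n = 1) :
    ∃ A T : Matrix (Fin n) (Fin n) F, A.det = 1 ∧ T.det = 1 ∧ A * T = c • (T * A) := by
  rcases Nat.even_or_odd n with ⟨h, hh⟩ | ⟨h, hh⟩
  swap
  · refine ⟨shiftMat n fun _ => 1, diagonal fun i : Fin n => c ^ (i : ℕ), ?_, ?_, shift_diag n _ hc⟩
    · rw [shiftMat_det, hh]
      simp
    · have hs : ∑ i ∈ Finset.range n, i = n * h := by
        refine Nat.eq_of_mul_eq_mul_right two_pos ?_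
        rw [Finset.sum_range_id_mul_two, hh, Nat.add_sub_cancel]
        ring
      rw [diag_det, hs, pow_mul, hc, one_pow]
  have hn : 0 < n := Nat.pos_of_ne_zero (NeZero.ne n)
  have hε : c ^ h * c ^ h = 1 := by rw [← pow_add, ← hh, hc]
  let d : Fin n → F := fun i => if (i : ℕ) = n - 1 then -1 else 1
  have hA : (shiftMat n d).det = 1 := by
    rw [shiftMat_det, Finset.prod_eq_single (⟨n - 1, by omega⟩ : Fin n)]
    · have h1 : Odd (n - 1) := ⟨h - 1, by omega⟩
      simp [d, h1.neg_one_pow]
    · intro i _ hi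
      exact if_neg fun e => hi (Fin.ext e)
    · simp
  have hD : (diagonal fun i : Fin n => c ^ (i : ℕ)).det = c ^ h := by
    have hs : ∑ i ∈ Finset.range n, i = h * (n - 1) := by
      refine Nat.eq_of_mul_eq_mul_right two_pos ?_
      rw [Finset.sum_range_id_mul_two, mul_right_comm, mul_two, ← hh]
    rw [diag_det, hs, pow_mul, show n - 1 = 2 * (h - 1) + 1 by omega, pow_succ, pow_mul, sq, hε,
      one_pow, one_mul]
  rcases mul_self_eq_one_iff.1 hε with hε1 | hε1
  · exact ⟨shiftMat n d, _, hA, hD.trans hε1, shift_diag n _ hc⟩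
  by_cases h2 : (-1 : F) = 1
  · exact ⟨shiftMat n d, _, hA, hD.trans (hε1.trans h2), shift_diag n _ hc⟩
  have hc0 : c ≠ 0 := fun h0 => by rw [h0, zero_pow (NeZero.ne n)] at hc; exact zero_ne_one hc
  obtain ⟨u, v, hu, huv⟩ := exists_sq_add_sq_ne h2 hc0
  let Z : Matrix (Fin n) (Fin n) F := u • 1 + v • (shiftMat n d ^ h)
  have hcomm : shiftMat n d * Z = Z * shiftMat n d := by
    simp only [Z, mul_add, add_mul, mul_smul_comm, smul_mul_assoc, mul_one, one_mul,
      ← pow_succ', ← pow_succ]
  have hZ : Z.det = -1 := by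
    let e : Fin h ⊕ Fin h ≃ Fin n := finSumFinEquiv.trans (finCongr hh.symm)
    have hprod : ∀ i : Fin n, ∏ r ∈ Finset.range h, d (i + Fin.ofNat n r) =
        if (i : ℕ) < h then 1 else -1 := by
      intro i
      have hval : ∀ r, r < h → ((i + Fin.ofNat n r : Fin n) : ℕ) =
          if (i : ℕ) + r < n then (i : ℕ) + r else (i : ℕ) + r - n := by
        intro r hr
        rw [Fin.val_add, Fin.val_ofNat, Nat.add_mod_mod]
        split_ifs with hh'
        · exact Nat.mod_eq_of_lt hh'
        · rw [Nat.mod_eq_sub_mod (by omega), Nat.mod_eq_of_lt (by omega)]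
      split_ifs with hi
      · refine Finset.prod_eq_one fun r hr => ?_
        have hr' := Finset.mem_range.1 hr
        refine if_neg ?_
        rw [hval r hr']
        split_ifs <;> omega
      · rw [Finset.prod_eq_single (n - 1 - (i : ℕ))]
        · refine if_pos ?_
          rw [hval _ (by omega)]
          split_ifs <;> omega
        · intro r hr hne
          have hr' := Finset.mem_range.1 hr
          refine if_neg ?_
          rw [hval r hr']
          split_ifs <;> omega
        · intro hr
          exact absurd (Finset.mem_range.2 (by omega)) hr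
    have hblk : Z.submatrix e e = fromBlocks (u • 1) (v • 1) (-(v • 1)) (u • 1) := by
      ext i j
      have hadd : ∀ x : Fin n, ((x + Fin.ofNat n h : Fin n) : ℕ) =
          if (x : ℕ) < h then (x : ℕ) + h else (x : ℕ) - h := by
        intro x
        rw [Fin.val_add, Fin.val_ofNat, Nat.add_mod_mod]
        split_ifs with hx
        · exact Nat.mod_eq_of_lt (by omega)
        · rw [Nat.mod_eq_sub_mod (by omega), Nat.mod_eq_of_lt (by omega)]
          omega
      rw [submatrix_apply]
      simp only [Z, Matrix.add_apply, Matrix.smul_apply, shiftMat_pow, hprod, Matrix.one_apply,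
        Fin.ext_iff, hadd]
      rcases i with i | i <;> rcases j with j | j <;>
        · simp only [e, Equiv.trans_apply, finSumFinEquiv_apply_left, finSumFinEquiv_apply_right,
            finCongr_apply, Fin.val_cast, Fin.val_castAdd, Fin.val_natAdd, fromBlocks_apply₁₁,
            fromBlocks_apply₁₂, fromBlocks_apply₂₁, fromBlocks_apply₂₂, Matrix.smul_apply,
            Matrix.neg_apply, Matrix.one_apply, Fin.ext_iff]
          have := i.2
          have := j.2
          split_ifs <;> first | omega | simp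
    rw [← det_submatrix_equiv_self e Z, hblk]
    haveI : Invertible (u • 1 : Matrix (Fin h) (Fin h) F) :=
      ⟨u⁻¹ • 1, by simp [smul_smul, hu], by simp [smul_smul, hu]⟩
    rw [det_fromBlocks₁₁]
    have hinv : ⅟(u • 1 : Matrix (Fin h) (Fin h) F) = u⁻¹ • 1 :=
      invOf_eq_right_inv (by simp [smul_smul, hu])
    rw [hinv]
    simp only [neg_mul, smul_mul_assoc, one_mul, mul_smul_comm, mul_one, smul_neg, neg_smul,
      sub_neg_eq_add, smul_smul, ← add_smul, det_smul, det_one, Fintype.card_fin]
    rw [← mul_pow]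
    rw [show u * (u + v * (u⁻¹ * v)) = c by rw [← huv]; field_simp]
    exact hε1
  refine ⟨shiftMat n d, (diagonal fun i : Fin n => c ^ (i : ℕ)) * Z, hA, ?_, ?_⟩
  · rw [det_mul, hD, hZ, hε1]; ring
  · rw [← mul_assoc, shift_diag n _ hc, smul_mul_assoc, mul_assoc, hcomm, ← mul_assoc]

end Cfsg.Agent.Lib.SLComm
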